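import Mathlib
import Cfsg.Agent.Lib.Helper44.FW.Defs

/-!
# Project FW (S3211), package [CY]

The square roots of `t₀ = x₀ (n x₀ n⁻¹)` inside `L₁L₂` are at most four.
-/

set_option autoImplicit false

namespace Cfsg.Agent.Lib.Helper1.FW

open Cfsg.Agent.Lib.Helper44.FW

universe u

/-- Elementwise commuting subgroups: every element of the join is a product. -/
theorem fw_mem_sup_comm {G : Type u} [Group G] (L₁ L₂ : Subgroup G)
    (comm : ∀ x ∈ L₁, ∀ y ∈ L₂, x * y = y * x) (r : G) (hr : r ∈ L₁ ⊔ L₂) :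
    ∃ u ∈ L₁, ∃ v ∈ L₂, r = u * v := by
  let S : Subgroup G :=
    { carrier := {r | ∃ u ∈ L₁, ∃ v ∈ L₂, r = u * v}
      mul_mem' := by
        rintro _ _ ⟨u, hu, v, hv, rfl⟩ ⟨u', hu', v', hv', rfl⟩
        refine ⟨u * u', L₁.mul_mem hu hu', v * v', L₂.mul_mem hv hv', ?_⟩
        calc u * v * (u' * v') = u * (v * u') * v' := by group
          _ = u * (u' * v) * v' := by rw [comm u' hu' v hv]
          _ = u * u' * (v * v') := by group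
      one_mem' := ⟨1, L₁.one_mem, 1, L₂.one_mem, by simp⟩
      inv_mem' := by
        rintro _ ⟨u, hu, v, hv, rfl⟩
        refine ⟨u⁻¹, L₁.inv_mem hu, v⁻¹, L₂.inv_mem hv, ?_⟩
        rw [mul_inv_rev, comm u⁻¹ (L₁.inv_mem hu) v⁻¹ (L₂.inv_mem hv)] }
  have h1 : L₁ ≤ S := fun u hu => ⟨u, hu, 1, L₂.one_mem, by simp⟩
  have h2 : L₂ ≤ S := fun v hv => ⟨1, L₁.one_mem, v, hv, by simp⟩
  exact (sup_le h1 h2) hr

/-- Integer powers of an element of square one. -/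
theorem fw_zpow_two_cases {G : Type u} [Group G] (j : G) (hj : j ^ 2 = 1) (k : ℤ) :
    j ^ k = 1 ∨ j ^ k = j := by
  have hjj : j * j = 1 := by rw [← pow_two]; exact hj
  rcases Int.even_or_odd' k with ⟨m, rfl | rfl⟩
  · left
    rw [zpow_mul, zpow_two, hjj, one_zpow]
  · right
    rw [zpow_add, zpow_mul, zpow_one, zpow_two, hjj, one_zpow, one_mul]

/-- The key lemma: pairs of square roots of `X ∈ L₁`, `Y ∈ L₂` give at most two products. -/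
theorem fw_cy_key {G : Type u} [Group G] (L₁ L₂ : Subgroup G) (j : G)
    (comm : ∀ x ∈ L₁, ∀ y ∈ L₂, x * y = y * x) (hj1 : j ∈ L₁) (hjj : j * j = 1)
    (sq1 : ∀ x ∈ L₁, x ^ 2 = j → ∀ u ∈ L₁, ∀ u' ∈ L₁, u ^ 2 = x → u' ^ 2 = x →
      u' = u ∨ u' = u * j)
    (sq2 : ∀ x ∈ L₂, x ^ 2 = j → ∀ u ∈ L₂, ∀ u' ∈ L₂, u ^ 2 = x → u' ^ 2 = x →
      u' = u ∨ u' = u * j)
    (X Y : G) (hX : X ∈ L₁) (hY : Y ∈ L₂) (hX2 : X ^ 2 = j) (hY2 : Y ^ 2 = j) :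
    ∃ a : G, ∀ u ∈ L₁, ∀ v ∈ L₂, u ^ 2 = X → v ^ 2 = Y → u * v = a ∨ u * v = a * j := by
  by_cases h : ∃ u ∈ L₁, ∃ v ∈ L₂, u ^ 2 = X ∧ v ^ 2 = Y
  · obtain ⟨u0, hu0, v0, hv0, hu02, hv02⟩ := h
    refine ⟨u0 * v0, ?_⟩
    intro u hu v hv hu2 hv2
    have hjv0 : j * v0 = v0 * j := comm j hj1 v0 hv0
    rcases sq1 X hX hX2 u0 hu0 u hu hu02 hu2 with rfl | rfl
    · rcases sq2 Y hY hY2 v0 hv0 v hv hv02 hv2 with rfl | rfl
      · left; rfl
      · right; rw [mul_assoc]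
    · rcases sq2 Y hY hY2 v0 hv0 v hv hv02 hv2 with rfl | rfl
      · right
        rw [mul_assoc, hjv0, mul_assoc]
      · left
        calc u0 * j * (v0 * j) = u0 * (j * v0) * j := by group
          _ = u0 * (v0 * j) * j := by rw [hjv0]
          _ = u0 * v0 * (j * j) := by group
          _ = u0 * v0 := by rw [hjj, mul_one]
  · refine ⟨1, ?_⟩
    intro u hu v hv hu2 hv2
    exact absurd ⟨u, hu, v, hv, hu2, hv2⟩ h

/-- **[CY]** the square roots of `t₀ = x₀ (n x₀ n⁻¹)` inside `L₁L₂` are at most four. -/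
theorem pkgCY : PkgCY.{u} := by
  intro G _ L₁ L₂ j n hc hS1 hS2 x₀ hx₀ hx₀2
  have hj2 : j ^ 2 = 1 := by
    have := pow_orderOf_eq_one j
    rwa [hc.ord] at this
  have hjj : j * j = 1 := by rw [← pow_two]; exact hj2
  have hjm : j ∈ L₁ ⊓ L₂ := by rw [hc.meet]; exact Subgroup.mem_zpowers j
  have hj1 : j ∈ L₁ := hjm.1
  have hjL2 : j ∈ L₂ := hjm.2
  have hy₀ : n * x₀ * n⁻¹ ∈ L₂ := by
    have := Subgroup.mem_map_of_mem (MulAut.conj n).toMonoidHom hx₀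
    rw [hc.swap] at this
    simpa using this
  have hnj : j * n = n * j := by
    have := hc.hn
    rw [Subgroup.mem_centralizer_iff] at this
    exact this j (Set.mem_singleton j)
  have hy₀2 : (n * x₀ * n⁻¹) ^ 2 = j := by
    rw [conj_pow, hx₀2, ← hnj, mul_inv_cancel_right]
  set y₀ : G := n * x₀ * n⁻¹ with hy₀def
  have hxj : x₀ * j = j * x₀ := hc.comm x₀ hx₀ j hjL2
  have hjy : j * y₀ = y₀ * j := hc.comm j hj1 y₀ hy₀
  have hXj2 : (x₀ * j) ^ 2 = j := by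
    calc (x₀ * j) ^ 2 = x₀ * (j * x₀) * j := by rw [pow_two]; group
      _ = x₀ * (x₀ * j) * j := by rw [hxj]
      _ = x₀ ^ 2 * (j * j) := by rw [pow_two]; group
      _ = j := by rw [hx₀2, hjj, mul_one]
  have hYj2 : (y₀ * j) ^ 2 = j := by
    calc (y₀ * j) ^ 2 = y₀ * (j * y₀) * j := by rw [pow_two]; group
      _ = y₀ * (y₀ * j) * j := by rw [hjy]
      _ = y₀ ^ 2 * (j * j) := by rw [pow_two]; group
      _ = j := by rw [hy₀2, hjj, mul_one]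
  obtain ⟨a, ha⟩ := fw_cy_key L₁ L₂ j hc.comm hj1 hjj hS1.sq hS2.sq x₀ y₀ hx₀ hy₀ hx₀2 hy₀2
  obtain ⟨b, hb⟩ := fw_cy_key L₁ L₂ j hc.comm hj1 hjj hS1.sq hS2.sq (x₀ * j) (y₀ * j)
    (L₁.mul_mem hx₀ hj1) (L₂.mul_mem hy₀ hjL2) hXj2 hYj2
  refine ⟨a, b, ?_⟩
  intro r hr hr2
  obtain ⟨u, hu, v, hv, rfl⟩ := fw_mem_sup_comm L₁ L₂ hc.comm r hr
  have huv : u ^ 2 * v ^ 2 = x₀ * y₀ := by
    rw [← hr2]
    calc u ^ 2 * v ^ 2 = u * (u * v) * v := by rw [pow_two, pow_two]; group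
      _ = u * (v * u) * v := by rw [hc.comm u hu v hv]
      _ = (u * v) ^ 2 := by rw [pow_two]; group
  have he : x₀⁻¹ * u ^ 2 = y₀ * (v ^ 2)⁻¹ := by
    apply eq_mul_inv_of_mul_eq
    rw [mul_assoc, huv, inv_mul_cancel_left]
  have he1 : x₀⁻¹ * u ^ 2 ∈ L₁ := L₁.mul_mem (L₁.inv_mem hx₀) (L₁.pow_mem hu 2)
  have he2 : x₀⁻¹ * u ^ 2 ∈ L₂ := by
    rw [he]
    exact L₂.mul_mem hy₀ (L₂.inv_mem (L₂.pow_mem hv 2))
  have hem : x₀⁻¹ * u ^ 2 ∈ Subgroup.zpowers j := by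
    rw [← hc.meet]
    exact ⟨he1, he2⟩
  obtain ⟨k, hk⟩ := Subgroup.mem_zpowers_iff.mp hem
  rcases fw_zpow_two_cases j hj2 k with h1 | h1
  · -- case (α)
    rw [h1] at hk
    have hu2 : u ^ 2 = x₀ := (inv_mul_eq_one.mp hk.symm).symm
    have hv2 : v ^ 2 = y₀ := by
      have : y₀ * (v ^ 2)⁻¹ = 1 := by rw [← he]; exact hk.symm
      exact (mul_inv_eq_one.mp this).symm
    rcases ha u hu v hv hu2 hv2 with h | h
    · exact Or.inl h
    · exact Or.inr (Or.inl h)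
  · -- case (β)
    rw [h1] at hk
    have hu2 : u ^ 2 = x₀ * j := inv_mul_eq_iff_eq_mul.mp hk.symm
    have hv2 : v ^ 2 = y₀ * j := by
      have h3 : y₀ * (v ^ 2)⁻¹ = j := by rw [← he]; exact hk.symm
      have h4 : y₀ = j * v ^ 2 := mul_inv_eq_iff_eq_mul.mp h3
      calc v ^ 2 = j * j * v ^ 2 := by rw [hjj, one_mul]
        _ = j * (j * v ^ 2) := by rw [mul_assoc]
        _ = j * y₀ := by rw [← h4]
        _ = y₀ * j := hjy
    rcases hb u hu v hv hu2 hv2 with h | h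
    · exact Or.inr (Or.inr (Or.inl h))
    · exact Or.inr (Or.inr (Or.inr h))

end Cfsg.Agent.Lib.Helper1.FW
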